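import Cfsg.Agent.Nodes.RGDChev
import Cfsg.Agent.Nodes.SimplyLaced

/-!
# The roots of a simply laced tabulated system are conjugate to the highest root (helper605)

* `exists_rep_eq` : `D` tabulated, simply laced: any two roots are conjugate under `W`;
* `exists_rep_top` : in particular to the root with index `D.nroots - 1`.
-/

set_option autoImplicit false
set_option linter.unusedSectionVars false

namespace Cfsg.Agent.H605.MX

open CoxeterSystem Cfsg Cfsg.Lie Cfsg.Lie.ChevalleyDatum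
open Cfsg.Agent.ChevalleyStructure Cfsg.Agent.ChevalleyStructure.CoxeterGeom
  Cfsg.Agent.ChevalleyStructure.CoxeterGeomTypes Cfsg.Agent.ChevalleyStructure.NPerm
open Cfsg.Agent.Tits.Roots Cfsg.Agent.Tits.Core Cfsg.Agent.Nodes Cfsg.Agent.Nodes.RGDChev
  Cfsg.Agent.Nodes.SimplyLaced

/-- a spanning tree of the diagram -/
theorem exists_rank {D : ChevalleyDatum} {l : ℕ} {M : CoxeterMatrix (Fin l)} (hp : IsType D l M)
    (h4 : ∀ i j, M i j ≠ 4) (h6 : ∀ i j, M i j ≠ 6) :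
    ∃ (i₀ : Fin l) (rk : Fin l → ℕ), ∀ i, i = i₀ ∨ ∃ j, i ≠ j ∧ cartanOf D l j i ≠ 0 ∧ rk j < rk i := by
  simp only [IsType, typeList, List.mem_cons, List.not_mem_nil, or_false, Prod.mk.injEq, Sigma.mk.injEq] at hp
  rcases hp with ⟨rfl, rfl, hM⟩ | ⟨rfl, rfl, hM⟩ | ⟨rfl, rfl, hM⟩ | ⟨rfl, rfl, hM⟩ | ⟨rfl, rfl, hM⟩ | ⟨rfl, rfl, hM⟩ |
    ⟨rfl, rfl, hM⟩
  all_goals first
    | exact ⟨0, ![0, 1], by decide +kernel⟩
    | exact ⟨0, ![0, 1, 2, 2], by decide +kernel⟩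
    | exact ⟨0, ![0, 1, 2, 3], by decide +kernel⟩
    | exact ⟨0, ![0, 3, 1, 2, 3, 4], by decide +kernel⟩
    | exact ⟨0, ![0, 3, 1, 2, 3, 4, 5], by decide +kernel⟩
    | exact ⟨0, ![0, 3, 1, 2, 3, 4, 5, 6], by decide +kernel⟩

section

variable {D : ChevalleyDatum} {l : ℕ} {M : CoxeterMatrix (Fin l)} (hp : IsType D l M)
  {W : Type*} [Group W] (cs : CoxeterSystem M W)

theorem pairing_sr' (A : Fin l → Fin l → ℤ) (i j : Fin l) : pairing A i (sr j) = A i j := by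
  rw [sr, pairing_single, mul_one]

/-- adjacent nodes -/
theorem adj {A : Fin l → Fin l → ℤ} (h : IsCartan M A) (h4 : ∀ i j, M i j ≠ 4) (h6 : ∀ i j, M i j ≠ 6) {i j : Fin l}
    (hij : i ≠ j) (h0 : A j i ≠ 0) : ∃ w : W, rep cs h w (sr i) = sr j := by
  have h1 : A i j = -1 ∧ A j i = -1 := by
    rcases h.rel i j hij with ⟨h0', h1, h2⟩ | ⟨h0', h1, h2⟩ | ⟨h0', ⟨h1, h2⟩ | ⟨h1, h2⟩⟩ | ⟨h0', ⟨h1, h2⟩ | ⟨h1, h2⟩⟩ <;>
      first
      | exact absurd h0' (h6 i j)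
      | exact absurd h0' (h4 i j)
      | exact absurd h2 h0
      | exact ⟨h1, h2⟩
  refine ⟨cs.simple i * cs.simple j, ?_⟩
  have e1 : sr i - (-1 : ℤ) • sr j = (sr i : Fin l → ℤ) + sr j := by module
  rw [rep_mul_apply, rep_simple_eq cs h j, pairing_sr', h1.2, rep_simple_eq cs h i, e1, pairing_add,
    pairing_sr', pairing_sr', h1.1, h.diag]
  module

theorem exists_rep_sr (h4 : ∀ i j, M i j ≠ 4) (h6 : ∀ i j, M i j ≠ 6) : ∃ i₀ : Fin l, ∀ i : Fin l,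
    ∃ w : W, rep cs hp.isCartan w (sr i) = sr i₀ := by
  obtain ⟨i₀, rk, hrk⟩ := exists_rank hp h4 h6
  refine ⟨i₀, ?_⟩
  have key : ∀ n : ℕ, ∀ i : Fin l, rk i ≤ n → ∃ w : W, rep cs hp.isCartan w (sr i) = sr i₀ := by
    intro n
    induction n with
    | zero =>
      intro i hi
      rcases hrk i with rfl | ⟨j, -, -, hj⟩
      · exact ⟨1, by rw [map_one, Module.End.one_apply]⟩
      · omega
    | succ n ih =>
      intro i hi
      rcases hrk i with rfl | ⟨j, h1, h2, hj⟩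
      · exact ⟨1, by rw [map_one, Module.End.one_apply]⟩
      · obtain ⟨w, hw⟩ := ih j (by omega)
        obtain ⟨v, hv⟩ := adj cs hp.isCartan h4 h6 h1 h2
        exact ⟨w * v, by rw [rep_mul_apply, hv, hw]⟩
  exact fun i => key _ i le_rfl

/-- **All roots are conjugate.** -/
theorem exists_rep_eq (h4 : ∀ i j, M i j ≠ 4) (h6 : ∀ i j, M i j ≠ 6) {a b : Fin l → ℤ}
    (ha : IsRoot cs hp.isCartan a) (hb : IsRoot cs hp.isCartan b) : ∃ w : W, b = rep cs hp.isCartan w a := by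
  obtain ⟨i₀, h⟩ := exists_rep_sr hp cs h4 h6
  have key : ∀ c, IsRoot cs hp.isCartan c → ∃ w : W, rep cs hp.isCartan w c = sr i₀ := by
    rintro c ⟨v, i, rfl⟩
    obtain ⟨w, hw⟩ := h i
    exact ⟨w * v⁻¹, by rw [rep_mul_apply, rep_inv_apply, hw]⟩
  obtain ⟨v, hv⟩ := key a ha
  obtain ⟨w, hw⟩ := key b hb
  exact ⟨w⁻¹ * v, by rw [rep_mul_apply, hv, ← hw, rep_inv_apply]⟩

theorem pos_nroots (hp : IsType D l M) : D.nroots - 1 < D.nroots := by
  simp only [IsType, typeList, List.mem_cons, List.not_mem_nil, or_false, Prod.mk.injEq] at hp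
  rcases hp with ⟨rfl, -⟩ | ⟨rfl, -⟩ | ⟨rfl, -⟩ | ⟨rfl, -⟩ | ⟨rfl, -⟩ | ⟨rfl, -⟩ | ⟨rfl, -⟩ <;> decide +kernel

/-- **All roots are conjugate to the highest root.** -/
theorem exists_rep_top (h4 : ∀ i j, M i j ≠ 4) (h6 : ∀ i j, M i j ≠ 6) {b : Fin l → ℤ}
    (hb : IsRoot cs hp.isCartan b) : ∃ w : W, b = rep cs hp.isCartan w (vec D l (D.nroots - 1)) :=
  exists_rep_eq hp cs h4 h6 ((isRoot_iff hp cs _).2 ⟨D.nroots - 1, pos_nroots hp, rfl⟩) hb

end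

end Cfsg.Agent.H605.MX
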